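import Mathlib.Algebra.Module.Torsion.Basic
import Mathlib.SetTheory.Cardinal.Finite
import Mathlib.Algebra.Group.TypeTags.Hom

/-!
# A counting lemma for torsion in extensions of groups
-/

set_option autoImplicit false

namespace Groth.Agent.Models.H300.GrpCount

/-- Counting torsion: `r : G → G'` onto, `D : G → A` a homomorphism (written additively) killing `ker r`;
if torsion classes of `G'` with vanishing `D`-class lift to torsion classes of `G`, then
`#G'[h] ≤ #A[h] * #G[h]`. -/
theorem card_le {G G' A : Type*} [CommGroup G] [CommGroup G'] [AddCommGroup A] (h : ℕ)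
    (r : G →* G') (hr : Function.Surjective r) (D : G → A)
    (hDmul : ∀ a b, D (a * b) = D a + D b)
    (h1 : ∀ c, r c = 1 → D c = 0)
    (h2 : ∀ c, r c ^ h = 1 → D c = 0 → ∃ c', c' ^ h = 1 ∧ r c' = r c)
    (hfinA : Finite (Submodule.torsionBy ℤ A (h : ℤ))) (hfinG : Finite {c : G // c ^ h = 1}) :
    Finite {c : G' // c ^ h = 1} ∧ Nat.card {c : G' // c ^ h = 1} ≤
      Nat.card (Submodule.torsionBy ℤ A (h : ℤ)) * Nat.card {c : G // c ^ h = 1} := by
  classical
  have hD1 : D 1 = 0 := h1 1 (map_one r)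
  have hDinv : ∀ a, D a⁻¹ = - D a := fun a => by
    have := hDmul a⁻¹ a
    rw [inv_mul_cancel, hD1] at this
    exact (neg_eq_of_add_eq_zero_left this.symm).symm
  have hDpow : ∀ (a : G) (n : ℕ), D (a ^ n) = n • D a := fun a n => by
    induction n with
    | zero => simp [hD1]
    | succ n ih => rw [pow_succ, hDmul, ih, succ_nsmul]
  -- a section of `r`
  let s : G' → G := Function.surjInv hr
  have hs : ∀ x, r (s x) = x := Function.surjInv_eq hr
  let F : {x : G' // x ^ h = 1} → Submodule.torsionBy ℤ A (h : ℤ) := fun x => ⟨D (s x.1), by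
    rw [Submodule.mem_torsionBy_iff]
    change (h : ℤ) • D (s x.1) = 0
    rw [natCast_zsmul, ← hDpow]
    exact h1 _ (by rw [map_pow, hs, x.2])⟩
  -- base points of the fibres of `F`
  have hlift : ∀ x y : {x : G' // x ^ h = 1}, F x = F y →
      ∃ c : {c : G // c ^ h = 1}, r c.1 = x.1 * y.1⁻¹ := by
    intro x y hxy
    have h3 : D (s x.1) = D (s y.1) := congrArg Subtype.val hxy
    obtain ⟨c', hc', hr'⟩ := h2 (s x.1 * (s y.1)⁻¹)
      (by rw [map_mul, map_inv, hs, hs, mul_pow, inv_pow, x.2, y.2, inv_one, mul_one])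
      (by rw [hDmul, hDinv, h3, add_neg_cancel])
    exact ⟨⟨c', hc'⟩, by rw [hr', map_mul, map_inv, hs, hs]⟩
  let b : Submodule.torsionBy ℤ A (h : ℤ) → {x : G' // x ^ h = 1} := fun t =>
    if ht : ∃ x, F x = t then ht.choose else ⟨1, one_pow h⟩
  have hb : ∀ x, F x = F (b (F x)) := fun x => by
    have hx : ∃ y, F y = F x := ⟨x, rfl⟩
    have : b (F x) = hx.choose := dif_pos hx
    rw [this, hx.choose_spec]
  haveI : Nonempty {c : G // c ^ h = 1} := ⟨⟨1, one_pow h⟩⟩
  choose! c hc using hlift
  let J : {x : G' // x ^ h = 1} → Submodule.torsionBy ℤ A (h : ℤ) × {c : G // c ^ h = 1} :=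
    fun x => (F x, c x (b (F x)))
  have hJ : Function.Injective J := by
    intro x y hxy
    have e1 : F x = F y := congrArg Prod.fst hxy
    have e2 : c x (b (F x)) = c y (b (F y)) := congrArg Prod.snd hxy
    have e3 := hc x (b (F x)) (hb x)
    have e4 := hc y (b (F y)) (hb y)
    rw [← e2, e3, ← e1] at e4
    exact Subtype.ext (mul_right_cancel e4)
  refine ⟨Finite.of_injective J hJ, ?_⟩
  rw [← Nat.card_prod]
  exact Nat.card_le_card_of_injective J hJ

end Groth.Agent.Models.H300.GrpCount
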